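import Mathlib
import Cfsg.Agent.H548.NpcCase
import Cfsg.Agent.S0117
import Cfsg.Agent.S0205
import Cfsg.Agent.Prune
set_option linter.all false
prune_inst 0x7f00000000000000000000000000000000000000000000000000000000000000000000000000000000000000000000000000000000000000000000000000000000000000000000000000000000000000003fffffffffffffffffffffffffffbeffbdffffffff
open scoped Cfsg.Agent.FastGrp

/-!
Coprime actions with many nilpotent invariant subgroups: solvability.
-/

set_option autoImplicit false

namespace Cfsg.Agent.H548.SolvAct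

open Subgroup Cfsg.Agent.H548.NilMax Cfsg.Agent.H548.InvSub Cfsg.Agent.H548.NpcCase

universe u v

theorem dvd_card_of_pgroup {G : Type*} [Group G] [Finite G] {p : ℕ} [Fact p.Prime]
    {R : Subgroup G} (hR : IsPGroup p R) (hR1 : R ≠ ⊥) : p ∣ Nat.card R := by
  obtain ⟨n, hn⟩ := IsPGroup.iff_card.mp hR
  rw [hn]
  refine dvd_pow_self p ?_
  rintro rfl
  rw [pow_zero] at hn
  exact hR1 (Subgroup.eq_bot_of_card_eq R hn)

/-- One of two groups of coprime orders is solvable. -/
theorem solv_or {A : Type u} {G : Type v} [Group A] [Group G] [Finite A] [Finite G]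
    (hcop : (Nat.card A).Coprime (Nat.card G)) : Group.IsSolvable A ∨ Group.IsSolvable G := by
  by_cases h : Odd (Nat.card A)
  · exact Or.inl (Cfsg.Agent.S0205.result h)
  · right
    apply Cfsg.Agent.S0205.result
    rw [Nat.not_odd_iff_even] at h
    by_contra h2
    rw [Nat.not_odd_iff_even] at h2
    exact Nat.not_coprime_of_dvd_of_dvd (by norm_num) h.two_dvd h2.two_dvd hcop

theorem solvable_of_pgroup {G : Type*} [Group G] [Finite G] {p : ℕ} [Fact p.Prime]
    (h : IsPGroup p G) : Group.IsSolvable G := by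
  have := h.isNilpotent
  infer_instance

variable {A : Type u} {G : Type v} [Group A] [Group G] [MulDistribMulAction A G]

theorem inv_centerThompson (p : ℕ) {P : Subgroup G} (hP : Inv A P) :
    Inv A (Cfsg.centerThompsonOf p P) := by
  apply inv_of_map_eq
  intro a
  rw [Cfsg.Agent.S0117.map_centerThompsonOf p (MulDistribMulAction.toMonoidHom G a) P
    ((MulAction.injective a).injOn), hP.map_eq]

theorem inv_complement [Finite G] {p : ℕ} [Fact p.Prime] (K : Subgroup G) (hK : K.Normal)
    (hKp : (Nat.card K).Coprime p) (hKG : IsPGroup p (G ⧸ K)) : Inv A K := by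
  intro a x hx
  rw [Cfsg.Agent.Transfer.NormalPComplement.mem_iff_coprime_orderOf' K hKp hKG] at hx ⊢
  have : orderOf (a • x) = orderOf x :=
    orderOf_injective (MulDistribMulAction.toMonoidHom G a) (MulAction.injective a) x
  rwa [this]

theorem solvable_of_simple_npc [Finite G]
    (hsimp : ∀ N : Subgroup G, N.Normal → Inv A N → N = ⊥ ∨ N = ⊤) {p : ℕ} [hp : Fact p.Prime]
    (hpG : p ∣ Nat.card G) (hnpc : Cfsg.HasNormalPComplement p G) : Group.IsSolvable G := by
  obtain ⟨K, hK, hKp, hKG⟩ :=
    Cfsg.Agent.Transfer.NormalPComplement.hasNormalPComplement_iff.mp hnpc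
  rcases hsimp K hK (inv_complement K hK hKp hKG) with rfl | rfl
  · have h1 : IsPGroup p G :=
      hKG.of_equiv (QuotientGroup.quotientBot (G := G))
    exact solvable_of_pgroup h1
  · exfalso
    rw [Subgroup.card_top, Nat.coprime_comm, Nat.Prime.coprime_iff_not_dvd hp.out] at hKp
    exact hKp hpG

/-- The characteristically simple case, odd prime. -/
theorem solvable_of_simple_odd [Finite G]
    (hsimp : ∀ N : Subgroup G, N.Normal → Inv A N → N = ⊥ ∨ N = ⊤) {p : ℕ} [hp : Fact p.Prime]
    (hp2 : p ≠ 2) (hpG : p ∣ Nat.card G)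
    (hnil : ∀ H : Subgroup G, H ≠ ⊤ → Inv A H → p ∣ Nat.card H → Group.IsNilpotent H)
    (P : Sylow p G) (hP : Inv A (P : Subgroup G)) : Group.IsSolvable G := by
  have hZ : Inv A (Cfsg.centerThompsonOf p (P : Subgroup G)) := inv_centerThompson p hP
  have hP1 : (P : Subgroup G) ≠ ⊥ := by
    intro h
    have h2 : p ∣ Nat.card (P : Subgroup G) := P.dvd_card_of_dvd_card hpG
    rw [h, Subgroup.card_bot] at h2
    exact hp.out.one_lt.ne' (Nat.dvd_one.mp h2)
  have hZ1 := Cfsg.Agent.S0117.centerThompsonOf_ne_bot (p := p) P.isPGroup' hP1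
  have hZle := Cfsg.Agent.S0117.centerThompsonOf_le p (P : Subgroup G)
  have hZp : IsPGroup p (Cfsg.centerThompsonOf p (P : Subgroup G)) := P.isPGroup'.to_le hZle
  by_cases htop : normalizer (Cfsg.centerThompsonOf p (P : Subgroup G) : Set G) = ⊤
  · rcases hsimp _ (Subgroup.normalizer_eq_top_iff.mp htop) hZ with h | h
    · exact absurd h hZ1
    · rw [h] at hZp
      exact solvable_of_pgroup (hZp.of_equiv Subgroup.topEquiv)
  · have hn := hnil _ htop hZ.normalizer
      ((dvd_card_of_pgroup hZp hZ1).trans (Subgroup.card_dvd_of_le Subgroup.le_normalizer))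
    have h1 : Cfsg.HasNormalPComplement p G := by
      rw [Cfsg.Agent.S0117.result hp2 P]
      exact Cfsg.Agent.Solvable.FpfThompson.hasNormalPComplement_of_isNilpotent hn p
    exact solvable_of_simple_npc hsimp hpG h1

theorem card_quotient_lt [Finite G] (N : Subgroup G) (hN : N ≠ ⊥) :
    Nat.card (G ⧸ N) < Nat.card G := by
  have h1 := N.card_mul_index
  have h2 : 1 < Nat.card N := by
    rw [Subgroup.one_lt_card_iff_ne_bot]
    exact hN
  have h3 : 0 < N.index := Nat.pos_of_ne_zero Subgroup.index_ne_zero_of_finite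
  change N.index < _
  rw [← h1]
  nlinarith

theorem nilp_quotient [Finite G] (N : Subgroup G) [N.Normal] (H : Subgroup (G ⧸ N))
    (h : Group.IsNilpotent (H.comap (QuotientGroup.mk' N))) : Group.IsNilpotent H := by
  have h1 : (H.comap (QuotientGroup.mk' N)).map (QuotientGroup.mk' N) = H :=
    Subgroup.map_comap_eq_self_of_surjective (QuotientGroup.mk'_surjective N) H
  have := h
  have h2 : Group.IsNilpotent ((H.comap (QuotientGroup.mk' N)).map (QuotientGroup.mk' N)) :=
    Group.nilpotent_of_surjective ((QuotientGroup.mk' N).subgroupMap _)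
      ((QuotientGroup.mk' N).subgroupMap_surjective _)
  rwa [h1] at h2

theorem comap_ne_top (N : Subgroup G) [N.Normal] (H : Subgroup (G ⧸ N)) (hH : H ≠ ⊤) :
    H.comap (QuotientGroup.mk' N) ≠ ⊤ := by
  intro h
  apply hH
  rw [← Subgroup.map_comap_eq_self_of_surjective (QuotientGroup.mk'_surjective N) H, h]
  exact Subgroup.map_top_of_surjective _ (QuotientGroup.mk'_surjective N)

theorem card_comap (N : Subgroup G) [N.Normal] [Finite G] (H : Subgroup (G ⧸ N)) :
    Nat.card H ∣ Nat.card (H.comap (QuotientGroup.mk' N)) := by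
  have h1 : (H.comap (QuotientGroup.mk' N)).map (QuotientGroup.mk' N) = H :=
    Subgroup.map_comap_eq_self_of_surjective (QuotientGroup.mk'_surjective N) H
  conv_lhs => rw [← h1]
  exact Subgroup.card_map_dvd _ _

theorem coprime_quotient [Finite G] [Finite A] (N : Subgroup G)
    (hcop : (Nat.card A).Coprime (Nat.card G)) : (Nat.card A).Coprime (Nat.card (G ⧸ N)) :=
  Nat.Coprime.coprime_dvd_right (Subgroup.card_quotient_dvd_card N) hcop

/-- All proper invariant subgroups nilpotent. -/
theorem solvable_of_all {A : Type u} [Group A] [Finite A] :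
    ∀ (n : ℕ) (G : Type v) [Group G] [Finite G] [MulDistribMulAction A G], Nat.card G = n →
      (Nat.card A).Coprime (Nat.card G) →
      (∀ H : Subgroup G, H ≠ ⊤ → Inv A H → Group.IsNilpotent H) → Group.IsSolvable G := by
  intro n
  induction n using Nat.strong_induction_on with
  | _ n ih =>
  intro G _ _ _ hn hcop hnil
  by_cases hex : ∃ N : Subgroup G, N.Normal ∧ Inv A N ∧ N ≠ ⊥ ∧ N ≠ ⊤
  · obtain ⟨N, hNn, hNi, hN1, hN2⟩ := hex
    have hN : Group.IsNilpotent N := hnil N hN2 hNi
    letI := quotAct N hNi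
    have hQ : Group.IsSolvable (G ⧸ N) :=
      ih _ (hn ▸ card_quotient_lt N hN1) (G ⧸ N) rfl (coprime_quotient N hcop) (by
        intro H hH hHi
        exact nilp_quotient N H (hnil _ (comap_ne_top N H hH) (inv_comap_mk N hNi H hHi)))
    rw [Group.isSolvable_iff_subgroup_quotient N]
    exact ⟨inferInstance, hQ⟩
  · have hsimp : ∀ N : Subgroup G, N.Normal → Inv A N → N = ⊥ ∨ N = ⊤ := by
      intro N h1 h2
      by_contra h3
      push Not at h3
      exact hex ⟨N, h1, h2, h3.1, h3.2⟩
    by_cases hodd : ∃ p : ℕ, p.Prime ∧ p ≠ 2 ∧ p ∣ Nat.card G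
    · obtain ⟨p, hp, hp2, hpG⟩ := hodd
      have : Fact p.Prime := ⟨hp⟩
      obtain ⟨P, hP⟩ := exists_inv_sylow (A := A) (G := G) hcop (solv_or hcop) p
      exact solvable_of_simple_odd hsimp hp2 hpG (fun H h1 h2 _ => hnil H h1 h2) P hP
    · push Not at hodd
      have h2 : IsPGroup 2 G := by
        apply IsPGroup.of_card (n := (Nat.card G).primeFactorsList.length)
        refine Nat.eq_prime_pow_of_unique_prime_dvd Nat.card_pos.ne' ?_
        intro d hd hdG
        by_contra hne
        exact hodd d hd hne hdG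
      exact solvable_of_pgroup h2

end Cfsg.Agent.H548.SolvAct
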